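import Mathlib
import Cfsg.Agent.Lib.HSub.Basic
import Cfsg.Agent.Lib.SolvStruct.Supersolvable
import Cfsg.Agent.Lib.SolvStruct.MinNormal
import Cfsg.Agent.Lib.SolvStruct.Util

/-!
# Supersolvability from strongly closed subgroups of a fixed order
-/

set_option autoImplicit false

namespace CfsgLib.HSub

open Subgroup CfsgLib.Tech CfsgLib.CFun Cfsg CfsgLib.SolvStruct
open scoped commutatorElement

universe u

variable {G : Type*} [Group G] {p : ℕ}

/-- A normal `p`-subgroup centralized by a supplement to a `p`-group in a normal subgroup with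
abelian quotient of exponent dividing `p - 1` contains a nontrivial cyclic normal subgroup. -/
theorem exists_cyclic_normal [Finite G] [hp : Fact p.Prime] {Q K S C : Subgroup G} [Q.Normal]
    [K.Normal] (hQ : IsPGroup p Q) (hne : Q ≠ ⊥) (hK1 : _root_.commutator G ≤ K)
    (hK2 : ∀ g : G, g ^ (p - 1) ∈ K) (hS : IsPGroup p S) (hC : C ≤ 𝐂(Q))
    (hK : ∀ k ∈ K, ∃ r ∈ S, ∃ e ∈ C, k = r * e) :
    ∃ x ∈ Q, x ≠ 1 ∧ (zpowers x).Normal := by
  obtain ⟨M, hMn, hMQ, hM0, hmin⟩ := exists_minimal_normal_le Q hne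
  have hMp := hQ.to_le hMQ
  have hT : IsPGroup p (S ⊔ M : Subgroup G) := hS.to_sup_of_normal_right hMp
  obtain ⟨z, hz, hzo, hzc⟩ := exists_mem_center_of_normalized hT le_sup_right
    (le_top.trans (normalizer_eq_top M).ge) hM0
  have hMK : K ≤ 𝐂(M) := by
    rcases hmin (M ⊓ 𝐂(K)) inferInstance inf_le_left with h0 | h0
    · exfalso
      have : z ∈ M ⊓ 𝐂(K) := by
        refine ⟨hz, fun k hk => ?_⟩
        obtain ⟨r, hr, e, he, rfl⟩ := hK k hk
        have h1 := hzc r (mem_sup_left hr)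
        have h2 := hC he z (hMQ hz)
        rw [mul_assoc, ← h2, ← mul_assoc, h1, mul_assoc]
      rw [h0, mem_bot] at this
      rw [this, orderOf_one] at hzo
      exact hp.out.one_lt.ne hzo
    · intro k hk m hm
      exact ((h0.ge hm).2 k hk).symm
  have hc := minimal_normal_card_eq_prime hMp hM0 hmin (hK1.trans hMK) fun g => hMK (hK2 g)
  have hzM : zpowers z = M :=
    eq_of_le_of_card_ge (zpowers_le.2 hz) (by rw [Nat.card_zpowers, hzo, hc])
  refine ⟨z, hMQ hz, ?_, hzM ▸ hMn⟩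
  rintro rfl
  rw [orderOf_one] at hzo
  exact hp.out.one_lt.ne hzo

theorem ss_of_normal_pgroup [Finite G] [hp : Fact p.Prime] {Q K S C : Subgroup G} [Q.Normal]
    [K.Normal] (hQ : IsPGroup p Q) (hK1 : _root_.commutator G ≤ K)
    (hK2 : ∀ g : G, g ^ (p - 1) ∈ K) (hS : IsPGroup p S) (hC : C ≤ 𝐂(Q))
    (hK : ∀ k ∈ K, ∃ r ∈ S, ∃ e ∈ C, k = r * e) (hG : IsSupersolvable (G ⧸ Q)) :
    IsSupersolvable G := by
  refine ss_of_step fun N hN hne => ?_
  by_cases hQN : Q ≤ N
  · have hs := QuotientGroup.mk'_surjective Q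
    have := hN.map _ hs
    obtain ⟨g, hg, hn⟩ := ss_step hG (N.map (QuotientGroup.mk' Q)) (by
      intro h0
      apply hne
      rw [← comap_map_mk'_of_le Q hQN, h0, comap_top])
    obtain ⟨g, rfl⟩ := hs g
    refine ⟨g, fun h => hg (mem_map_of_mem _ h), ?_⟩
    have h1 := hn.comap (QuotientGroup.mk' Q)
    rwa [← MonoidHom.map_zpowers, ← Subgroup.map_sup,
      comap_map_mk'_of_le Q (hQN.trans le_sup_left)] at h1
  · have hs := QuotientGroup.mk'_surjective N
    let f := QuotientGroup.mk' N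
    have h1 : (Q.map f).Normal := Normal.map inferInstance _ hs
    have h2 : (K.map f).Normal := Normal.map inferInstance _ hs
    obtain ⟨x, hx, hx1, hxn⟩ := exists_cyclic_normal (p := p) (Q := Q.map f) (K := K.map f)
      (S := S.map f) (C := C.map f) (hQ.map f) (fun h => hQN ((map_mk'_eq_bot_iff N Q).1 h))
      (by
        rw [commutator_def, ← map_top_of_surjective f hs, ← map_commutator]
        exact map_mono hK1)
      (fun g => by
        obtain ⟨g, rfl⟩ := hs g
        exact ⟨_, hK2 g, map_pow _ _ _⟩)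
      (hS.map f)
      (by
        rintro _ ⟨c, hc, rfl⟩ _ ⟨q, hq, rfl⟩
        rw [← map_mul, ← map_mul, hC hc q hq])
      (by
        rintro _ ⟨k, hk, rfl⟩
        obtain ⟨r, hr, e, he, rfl⟩ := hK k hk
        exact ⟨_, mem_map_of_mem f hr, _, mem_map_of_mem f he, map_mul _ _ _⟩)
    obtain ⟨g, -, rfl⟩ := hx
    refine ⟨g, fun h => hx1 ((QuotientGroup.eq_one_iff g).2 h), ?_⟩
    have h3 := hxn.comap f
    rwa [← MonoidHom.map_zpowers, comap_map_mk', sup_comm] at h3

/-- A normal `p`-subgroup all of whose subgroups of order `d` are normal is hypercyclically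
embedded. -/
theorem ss_of_normal_order [Finite G] [hp : Fact p.Prime] {Q : Subgroup G} [Q.Normal]
    (hQ : IsPGroup p Q) {k : ℕ} (hk0 : k ≠ 0) (hk : p ^ k < Nat.card Q)
    (h : ∀ F : Subgroup G, F ≤ Q → (Nat.card F = p ^ k ∨ (p ^ k = 2 ∧ Nat.card F = 4)) → F.Normal)
    (hG : IsSupersolvable (G ⧸ Q)) : IsSupersolvable G := by
  let K : Subgroup G := ⨅ φ : G →* (ZMod p)ˣ, φ.ker
  have hKn : K.Normal := normal_iInf_normal fun φ => inferInstance
  obtain ⟨S, hS⟩ := exists_isSylowIn p K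
  refine ss_of_normal_pgroup (K := K) (S := S) (C := 𝐂(Q)) hQ
    (le_iInf fun φ => Abelianization.commutator_subset_ker φ)
    (fun g => mem_iInf.2 fun φ => ?_) hS.pgroup le_rfl
    (fun x hx => sylIn_exists_mul hS (fun y hy hc => ?_) hx) hG
  · rw [MonoidHom.mem_ker, map_pow, ← ZMod.card_units p]
    exact pow_card_eq_one
  · refine cent_of_norm_order (Y := ⊤) hQ (mem_top y) (le_normalizer_of_normal (mem_top y)) hc
      (triv_of_hom (mem_top y) fun φ => ?_) hk0 hk fun F hF hFc => ?_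
    · exact mem_iInf.1 hy (φ.comp topEquiv.symm.toMonoidHom)
    · have := h F hF hFc
      exact le_normalizer_of_normal

theorem HS.normal [Finite G] [Fact p.Prime] {F Q : Subgroup G} [hQn : Q.Normal] (h : HS F)
    (hQ : IsPGroup p Q) (hF : F ≤ Q) : F.Normal :=
  ⟨fun _ hx g => h.sc hQ hF g hx (hQn.conj_mem _ (hF hx) g)⟩

theorem HS.map [Finite G] [hp : Fact p.Prime] {G' : Type*} [Group G'] {F : Subgroup G} (h : HS F)
    (hF : IsPGroup p F) {f : G →* G'} (hf : Function.Surjective f)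
    (hk : ¬ p ∣ Nat.card f.ker) : HS (F.map f) := by
  intro g x hx
  obtain ⟨g, rfl⟩ := hf g
  rw [← map_cj] at hx
  obtain ⟨⟨x, hx1, rfl⟩, hx2⟩ := hx
  let L : Subgroup G := (F.map f).comap f
  have hL : L = F ⊔ f.ker := comap_map_eq f F
  have hFL : F ≤ L := le_comap_map f F
  have hsyl : IsSylowIn p F L := by
    refine ⟨hFL, hF, fun hd => hk (hd.trans ?_)⟩
    have h1 := card_mul_relIndex' hFL
    have h2 := card_sup_mul_card_inf_of_normal f.ker F
    rw [sup_comm, ← hL, ← h1, mul_assoc, mul_comm (Nat.card f.ker)] at h2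
    exact Dvd.intro _ (Nat.eq_of_mul_eq_mul_left Nat.card_pos h2)
  have hxL : x ∈ 𝐍(L) := by
    refine mem_normalizer_of_forall fun a ha => ?_
    have := conj_mem_of_mem_normalizer hx2 (show f a ∈ F.map f from ha)
    simpa [L, mem_comap] using this
  obtain ⟨T, hT, hFT⟩ := exists_isSylowIn_ge hF (hFL.trans (le_normalizer (H := L)))
  obtain ⟨l, hl, hlx⟩ := hT.exists_conj_mem hxL (isPGroup_zpowers_of_mem (isPGroup_cj g hF) hx1)
  have h1 : l * x * l⁻¹ ∈ F := by
    have h2 := h.sc hT.pgroup hFT (l * g) (mem_cj.1 hx1) (by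
      convert hlx using 1
      group)
    convert h2 using 1
    group
  have h3 := conj_mem_of_mem_normalizer' hl (hFL h1)
  have h4 : x ∈ L := by
    convert h3 using 1
    group
  exact h4

/-- The hypothesis on the Sylow subgroups of `E`. -/
def Hyp (E : Subgroup G) : Prop :=
  ∀ p : ℕ, p.Prime → ∀ P : Subgroup G, IsSylowIn p P E → ¬ IsCyclic P →
    ∃ k : ℕ, k ≠ 0 ∧ p ^ k < Nat.card P ∧
      ∀ F : Subgroup G, F ≤ P → (Nat.card F = p ^ k ∨ (p ^ k = 2 ∧ Nat.card F = 4)) → HS F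

theorem Hyp.exists_normal_sylow [Finite G] (E : Subgroup G) (hE : E.Normal) (h : Hyp E)
    (hne : E ≠ ⊥) :
    ∃ q : ℕ, q.Prime ∧ ∃ Q : Subgroup G, Q.Normal ∧ Q ≠ ⊥ ∧ IsSylowIn q Q E := by
  induction hn : Nat.card E using Nat.strong_induction_on generalizing E with
  | _ n ih =>
  subst hn
  have h1 : Nat.card E ≠ 1 := fun h1 => hne (card_eq_one.1 h1)
  set p := (Nat.card E).minFac
  have hp : p.Prime := Nat.minFac_prime h1
  have : Fact p.Prime := ⟨hp⟩
  have hco : ∀ y ∈ E, (orderOf y).Coprime p → (orderOf y).Coprime (p - 1) := fun y hy _ =>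
    coprime_pred_of_min (fun q hq hd => Nat.minFac_le_of_dvd hq.two_le hd) hy
  obtain ⟨S, hS⟩ := exists_isSylowIn p E
  have hnpc : HasNormalPComplement p E := by
    by_cases hc : IsCyclic S
    · exact npc_of_cyclic hS hco hc
    · obtain ⟨k, hk0, hk, hF⟩ := h p hp S hS hc
      exact npc_of_sc hS hco hk0 hk fun F hFS hFc g _ x hx hg =>
        (hF F hFS hFc).sc hS.pgroup hFS g hx hg
  let K : Subgroup G := (pResidual p E).map E.subtype
  have := CfsgLib.Transfer.pResidual_characteristic p E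
  have hKn : K.Normal := normal_map_subtype_of_char _
  have hKE : K ≤ E := map_subtype_le _
  have hKc : ¬ p ∣ Nat.card K := by
    rw [card_map_subtype]
    exact CfsgLib.Transfer.hasNormalPComplement_iff_not_dvd.1 hnpc
  obtain ⟨a, ha⟩ : ∃ a, K.relIndex E = p ^ a := by
    have h2 := (CfsgLib.Transfer.isComplement'_pResidual hnpc hS.toSylow).symm.index_eq_card
    obtain ⟨a, ha⟩ := IsPGroup.iff_card.1 hS.toSylow.isPGroup'
    refine ⟨a, ?_⟩
    rw [relIndex, subgroupOf, comap_map_eq_self_of_injective E.subtype_injective, h2, ha]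
  by_cases hK0 : K = ⊥
  · refine ⟨p, hp, E, hE, hne, sylIn_self (IsPGroup.of_card (n := a) ?_)⟩
    rw [← ha, hK0, relIndex_bot_left]
  have htr : ∀ q : ℕ, q.Prime → ∀ P : Subgroup G, IsSylowIn q P K → P ≠ ⊥ → IsSylowIn q P E := by
    intro q hq P hP hP0
    have : Fact q.Prime := ⟨hq⟩
    refine hP.trans hKE fun hd => hKc ?_
    rw [ha] at hd
    have hqp := (Nat.prime_dvd_prime_iff_eq hq hp).1 (hq.dvd_of_dvd_pow hd)
    rw [← hqp]
    exact (CfsgLib.Core.dvd_card_of_isPGroup_of_ne_bot hP.pgroup hP0).trans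
      (card_dvd_of_le hP.le)
  have hlt : Nat.card K < Nat.card E := by
    refine lt_of_le_of_ne (card_le_of_le hKE) fun h0 => hKc ?_
    rw [h0]
    exact Nat.minFac_dvd _
  obtain ⟨q, hq, Q, hQn, hQ0, hQ⟩ := ih _ hlt K hKn (fun q hq P hP hc =>
    h q hq P (htr q hq P hP (by rintro rfl; exact hc inferInstance)) hc) hK0 rfl
  exact ⟨q, hq, Q, hQn, hQ0, htr q hq Q hQ hQ0⟩

theorem Hyp.map [Finite G] {G' : Type*} [Group G'] [Finite G'] {E : Subgroup G} (h : Hyp E)
    {f : G →* G'} (hf : Function.Surjective f) {q : ℕ} (hq : q.Prime)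
    (hk : IsSylowIn q f.ker E) : Hyp (E.map f) := by
  intro p hp P' hP' hc
  have : Fact p.Prime := ⟨hp⟩
  have : Fact q.Prime := ⟨hq⟩
  have hpq : p ≠ q := by
    rintro rfl
    have h1 := sylIn_map hk f
    rw [(Subgroup.map_eq_bot_iff _).2 le_rfl] at h1
    have h2 := h1.card_eq hP'
    rw [card_bot] at h2
    rw [card_eq_one.1 h2.symm] at hc
    exact hc inferInstance
  have hkc : ¬ p ∣ Nat.card f.ker := by
    obtain ⟨a, ha⟩ := IsPGroup.iff_card.1 hk.pgroup
    rw [ha]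
    exact fun hd => hpq ((Nat.prime_dvd_prime_iff_eq hp hq).1 (hp.dvd_of_dvd_pow hd))
  obtain ⟨P₀, hP₀⟩ := exists_isSylowIn p E
  obtain ⟨_, ⟨g, hg, rfl⟩, hgP⟩ := (sylIn_map hP₀ f).exists_cj_eq hP'
  rw [← map_cj] at hgP
  have hP := hP₀.cj_of_mem hg
  set P := cj g P₀
  subst hgP
  have hcard : ∀ F : Subgroup G, F ≤ P → Nat.card (F.map f) = Nat.card F := by
    intro F hF
    have h0 : F ⊓ f.ker = ⊥ := by
      by_contra h0
      exact hkc ((CfsgLib.Core.dvd_card_of_isPGroup_of_ne_bot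
        (hP.pgroup.to_le (inf_le_left.trans hF)) h0).trans (card_dvd_of_le inf_le_right))
    have h1 : Function.Injective (f.subgroupMap F) := by
      rw [← MonoidHom.ker_eq_bot_iff, eq_bot_iff]
      intro x hx
      have h2 : (x : G) ∈ F ⊓ f.ker := ⟨x.2, congrArg Subtype.val hx⟩
      rw [h0, mem_bot] at h2
      exact Subtype.ext h2
    exact (Nat.card_congr (Equiv.ofBijective _ ⟨h1, f.subgroupMap_surjective F⟩)).symm
  obtain ⟨k, hk0, hkP, hF⟩ := h p hp P hP fun hcP =>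
    hc (isCyclic_of_surjective _ (f.subgroupMap_surjective P))
  refine ⟨k, hk0, by rwa [hcard P le_rfl], fun F' hF' hFc => ?_⟩
  have h1 : (P ⊓ F'.comap f).map f = F' := by
    refine le_antisymm (map_le_iff_le_comap.2 inf_le_right) fun x hx => ?_
    obtain ⟨y, hy, rfl⟩ := hF' hx
    exact ⟨y, ⟨hy, hx⟩, rfl⟩
  rw [← h1] at hFc ⊢
  rw [hcard _ inf_le_left] at hFc
  exact (hF _ inf_le_left hFc).map (hP.pgroup.to_le inf_le_left) hf hkc

theorem ss_of_hyp (G : Type u) [Group G] [Finite G] :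
    ∀ (E : Subgroup G) [E.Normal], IsSupersolvable (G ⧸ E) → Hyp E → IsSupersolvable G := by
  refine card_induction (P := fun G _ _ => ∀ (E : Subgroup G) [E.Normal],
    IsSupersolvable (G ⧸ E) → Hyp E → IsSupersolvable G) (fun G _ _ ih E hE hG h => ?_) G
  by_cases hne : E = ⊥
  · subst hne
    exact ss_of_mulEquiv hG QuotientGroup.quotientBot
  obtain ⟨q, hq, Q, hQn, hQ0, hQ⟩ := h.exists_normal_sylow E hE hne
  have : Fact q.Prime := ⟨hq⟩
  have hs := QuotientGroup.mk'_surjective Q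
  have hGQ : IsSupersolvable (G ⧸ Q) := by
    refine ih (G ⧸ Q) (card_quotient_lt Q hQ0) (E.map (QuotientGroup.mk' Q))
      (ss_of_mulEquiv hG (QuotientGroup.quotientQuotientEquivQuotient Q E hQ.le).symm)
      (h.map hs hq ?_)
    rwa [QuotientGroup.ker_mk']
  by_cases hc : IsCyclic Q
  · exact ss_of_quotient_cyclic Q hGQ
  obtain ⟨k, hk0, hk, hF⟩ := h q hq Q hQ hc
  exact ss_of_normal_order hQ.pgroup hk0 hk
    (fun F hFQ hFc => (hF F hFQ hFc).normal hQ.pgroup hFQ) hGQ

end CfsgLib.HSub
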